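import Cfsg.Agent.H185.MeetTw
import Cfsg.Agent.H233.B3.Row2

/-!
# `Row3 2` for `²E₆(q)` and `³D₄(q)`, `q` even (task 2821 of S5761)

The proofs are those of `Cfsg.Agent.H185.MeetTw` (helper185) at the prime `2`: `|Out T|` divides `3 |Aut K|`.
-/

set_option autoImplicit false
set_option linter.unusedSectionVars false
set_option maxHeartbeats 400000

namespace Cfsg.Agent.H351.B3Tw

open CoxeterSystem Cfsg.Agent.ChevalleyStructure.CoxeterGeom Cfsg.Agent.Tits.Roots Cfsg.Agent.Tits.Core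
  Cfsg.Agent.Tits.Exchange Cfsg.Agent.Nodes.Reps Cfsg.Agent.Nodes.BNOf Cfsg.Agent.Nodes.StabComb
  Cfsg.Agent.Nodes.Bruhat Cfsg.Agent.Nodes.OppDec Cfsg.Agent.Nodes.RGDTwGen Cfsg.Agent.Nodes.RGDChev
  Cfsg.Agent.Nodes.RGDFold Cfsg.Agent.Nodes.RGDFoldSL
open Cfsg.Agent.KFacts.RgdOpp Cfsg.Agent.KFacts.RgdAut Cfsg.Agent.KFacts.RgdDiag Cfsg.Agent.KFacts.RgdRigid
  Cfsg.Agent.KFacts.RgdField Cfsg.Agent.KFacts.RgdTau Cfsg.Agent.KFacts.RgdNodes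
open Cfsg.Lie Cfsg.Agent.ChevalleyStructure Cfsg.Agent.ChevalleyStructure.Elts Cfsg.Agent.ChevStructure.FieldMap
open Cfsg.Agent.ChevalleyStructure.SL2Hom (up lo)
open Cfsg.Agent.CpAut.RgdTwStd
open Cfsg.Agent.H903.SylMeet Cfsg.Agent.H185 Cfsg.Agent.H185.MeetTw

universe u

/-! ### `²E₆` -/

section E6

open Cfsg.Agent.KFacts.TwESix.NodeCoord Cfsg.Agent.KFacts.TwESix.Out Cfsg.Agent.KFacts.TwESix.OutTwo
open Cfsg.Agent.Nodes.RGDTwE6 Cfsg.Agent.Nodes.RGDTwNode.E6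
open Cfsg.Agent.ChevalleyStructure.TwE6Basic (hE6 exists_frob)
open Cfsg.Agent.CpAut.RgdTwE6 (st rs st_n ntau_st)

/-- **`²E₆(q)`, `q` even: `Meet 2`.** -/
theorem meet_2E6 {K : Type} [Field K] [Fintype K] (q : ℕ) (hq : IsPrimePow q) (hK : Fintype.card K = q ^ 2)
    (hpq : 2 ∣ q) : Meet 2 ↥(twistedE6 K q) := by
  have hF2 : Fact (Nat.Prime 2) := ⟨Nat.prime_two⟩
  obtain ⟨p, hpe⟩ : ∃ p : ℕ, p = 2 := ⟨2, rfl⟩
  rw [← hpe] at hpq hF2 ⊢
  have hpp : p.Prime := Fact.out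
  obtain ⟨φ, hφ, hqq⟩ := exists_frob hq hK
  obtain ⟨p', f, hp', hf, hpf⟩ := (isPrimePow_nat_iff _).1 hq
  obtain rfl : p = p' := by
    rw [← hpf] at hpq
    exact (Nat.prime_dvd_prime_iff_eq hpp hp').1 (hpp.dvd_of_dvd_pow hpq)
  have hKp : Fintype.card K = p ^ (2 * f) := by rw [hK, ← hpf, ← pow_mul, mul_comm]
  have hchar : CharP K p := by
    obtain ⟨c, hc⟩ := CharP.exists K
    have : c = p := Cfsg.Agent.FixBN.TwESixSplit.char_eq (K := K) hpp hKp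
    exact this ▸ hc
  have hW : Finite CoxeterMatrix.F₄.Group :=
    Cfsg.Agent.Nodes.RGDFold.finite_W (hp := Cfsg.Agent.Nodes.RGDTwE6.hp) CoxeterMatrix.F₄.toCoxeterSystem
      Cfsg.Agent.Nodes.RGDTwE6.isCartan Cfsg.Agent.Nodes.RGDTwE6.foldData
  obtain ⟨cs, -⟩ : ∃ cs : CoxeterSystem CoxeterMatrix.F₄ CoxeterMatrix.F₄.Group, cs = cs :=
    ⟨CoxeterMatrix.F₄.toCoxeterSystem, rfl⟩
  have R := Cfsg.Agent.Nodes.RGDTwE6.rgd cs hφ hqq p
  have hG1 := G1_top cs hφ hqq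
  obtain ⟨hs, hna⟩ := Cfsg.Agent.S1070.result hq hK
  have hout := Cfsg.Agent.S2130.result (K := K) p f hKp hf.nat_succ_le
  rw [hpf] at hout
  have hRA : Nat.card (K ≃+* K) = 2 * f :=
    Cfsg.Agent.Lib.FieldAutCard.card_ringAut (by omega) hKp
  have hfinR : Finite (K ≃+* K) := Finite.of_injective (fun σ : K ≃+* K => (σ : K → K)) DFunLike.coe_injective
  obtain ⟨t, ht, hfree⟩ := exists_free (coordE hφ hqq 2)
  refine MeetRgd.meet_rgd R hna (GG_eq_top (T := T K q) hG1) (stE q)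
    (fun τ => (ntau_st hφ hqq τ cs p).diag) (fun τ i => st_n hφ τ i) (m := 3)
    (by rw [hpe]; norm_num) ?_ t ht ?_
  · rw [hout, hRA]
    refine dvd_trans (b := 2 * 3 * f) ?_ ?_
    · exact mul_dvd_mul_right (mul_dvd_mul_left 2 (Nat.gcd_dvd_left 3 _)) _
    · exact ⟨1, by ring⟩
  · intro τ _ h
    have h1 := (ntau_st hφ hqq τ cs p).char 2 t ht
    have h2 : st q τ t = t := h
    rw [h2] at h1
    have h3 := hfree _ h1.symm
    ext a
    have h4 : a ∈ KF φ 2 := by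
      have := F2_eq_top hφ hqq
      show a ∈ Fx φ 2
      rw [this]
      exact Subfield.mem_top a
    have h5 := congrArg (fun f : KF φ 2 ≃+* KF φ 2 => ((f ⟨a, h4⟩ : KF φ 2) : K)) h3
    exact h5

/-- **`Row3 2` for `²E₆(q)`, `q` even.** -/
theorem row2_2E6 {K : Type} [Field K] [Fintype K] (q : ℕ) (hq : IsPrimePow q) (hK : Fintype.card K = q ^ 2)
    (hpq : 2 ∣ q) : Cfsg.Agent.H233.B3.Row3 2 ↥(twistedE6 K q) := by
  have hF2 : Fact (Nat.Prime 2) := ⟨Nat.prime_two⟩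
  obtain ⟨hs, hna⟩ := Cfsg.Agent.S1070.result hq hK
  exact Cfsg.Agent.H233.B3.row3_of_meet hna (meet_2E6 q hq hK hpq)

end E6

/-! ### `³D₄` -/

section D4

open Cfsg.Agent.KFacts.TwDFour.Out
open Cfsg.Agent.Nodes.RGDTwD4 Cfsg.Agent.Nodes.RGDTwNode.D4
open Cfsg.Agent.ChevalleyStructure (D4Fixed.exists_frob)
open Cfsg.Agent.H69.OutTwD4 (st rs st_n ntau_st)

/-- **`³D₄(q)`, `q` even: `Meet 2`.** -/
theorem meet_3D4 {K : Type} [Field K] [Fintype K] (q : ℕ) (hq : IsPrimePow q) (hK : Fintype.card K = q ^ 3)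
    (hpq : 2 ∣ q) : Meet 2 ↥(twistedD4 K q) := by
  have hF2 : Fact (Nat.Prime 2) := ⟨Nat.prime_two⟩
  obtain ⟨p, hpe⟩ : ∃ p : ℕ, p = 2 := ⟨2, rfl⟩
  rw [← hpe] at hpq hF2 ⊢
  have hpp : p.Prime := Fact.out
  obtain ⟨φ, hφ⟩ := Cfsg.Agent.ChevalleyStructure.D4Fixed.exists_frob hq hK
  obtain ⟨p', f, hp', hf, hpf⟩ := (isPrimePow_nat_iff _).1 hq
  obtain rfl : p = p' := by
    rw [← hpf] at hpq
    exact (Nat.prime_dvd_prime_iff_eq hpp hp').1 (hpp.dvd_of_dvd_pow hpq)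
  have hKp : Fintype.card K = p ^ (3 * f) := by rw [hK, ← hpf, ← pow_mul, mul_comm]
  have hchar : CharP K p := by
    obtain ⟨c, hc⟩ := CharP.exists K
    have : c = p := Cfsg.Agent.FixBN.TwESixSplit.char_eq (K := K) hpp hKp
    exact this ▸ hc
  obtain ⟨cs, -⟩ : ∃ cs : CoxeterSystem CoxeterMatrix.G₂ CoxeterMatrix.G₂.Group, cs = cs :=
    ⟨CoxeterMatrix.G₂.toCoxeterSystem, rfl⟩
  have hW : Finite CoxeterMatrix.G₂.Group := finiteW cs
  have R := Cfsg.Agent.Nodes.RGDTwD4.rgd cs hK hφ p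
  have hG1 : RGD.Sup (X φ q) {x | IsRoot cs isCartan x} = ⊤ := G1_eq_top cs hK hφ
  obtain ⟨hs, hna⟩ := Cfsg.Agent.S1071.result hq hK
  have hout := Cfsg.Agent.S2129.result (K := K) p f hKp hf.nat_succ_le
  rw [hpf] at hout
  have hRA : Nat.card (K ≃+* K) = 3 * f :=
    Cfsg.Agent.Lib.FieldAutCard.card_ringAut (by omega) hKp
  have hfinR : Finite (K ≃+* K) := Finite.of_injective (fun σ : K ≃+* K => (σ : K → K)) DFunLike.coe_injective
  obtain ⟨t, ht, hfree⟩ := exists_free (coordD hφ hK 1)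
  refine MeetRgd.meet_rgd R hna (GG_eq_top (T := T K q) hG1) (stD q)
    (fun τ => (ntau_st hφ hK τ cs p).diag) (fun τ i => st_n hφ τ i) (m := 1)
    (by rw [hpe]; norm_num) ?_ t ht ?_
  · rw [hout, hRA, one_mul]
  · intro τ _ h
    have h1 := (ntau_st hφ hK τ cs p).char 1 t ht
    have h2 : st q τ t = t := h
    rw [h2] at h1
    have h3 := hfree _ h1.symm
    ext a
    have h4 : a ∈ KD φ 1 := by
      rw [F3_eq_top hK hφ]
      exact Subfield.mem_top a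
    have h5 := congrArg (fun f : KD φ 1 ≃+* KD φ 1 => ((f ⟨a, h4⟩ : KD φ 1) : K)) h3
    exact h5

/-- **`Row3 2` for `³D₄(q)`, `q` even.** -/
theorem row2_3D4 {K : Type} [Field K] [Fintype K] (q : ℕ) (hq : IsPrimePow q) (hK : Fintype.card K = q ^ 3)
    (hpq : 2 ∣ q) : Cfsg.Agent.H233.B3.Row3 2 ↥(twistedD4 K q) := by
  have hF2 : Fact (Nat.Prime 2) := ⟨Nat.prime_two⟩
  obtain ⟨hs, hna⟩ := Cfsg.Agent.S1071.result hq hK
  exact Cfsg.Agent.H233.B3.row3_of_meet hna (meet_3D4 q hq hK hpq)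

end D4

end Cfsg.Agent.H351.B3Tw
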